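import Mathlib

/-!
Finite fields of characteristic two: the field automorphisms form an `F`-basis of the additive maps
`F → F`; biadditive maps are combinations of `(x, y) ↦ σ x * τ y`; quadratic maps are combinations
of `x ↦ σ x * τ x`.
-/

set_option autoImplicit false

namespace Cfsg.Agent.Lib.RankOne.FieldAut

open Module

variable {F : Type*} [Field F] [Fintype F]

theorem finite_aut : Finite (F ≃+* F) :=
  Finite.of_injective (fun σ : F ≃+* F => (σ : F ≃ F)) (fun σ τ h => by
    ext x
    exact congrFun (congrArg (fun e : F ≃ F => (e : F → F)) h) x)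

omit [Fintype F] in
omit [Fintype F] in
/-- The automorphisms are linearly independent as functions. -/
theorem linearIndependent_aut :
    LinearIndependent F (fun σ : F ≃+* F => ((σ : F →+* F) : F → F)) := by
  have h := linearIndependent_monoidHom F F
  refine h.comp (fun σ : F ≃+* F => ((σ : F →+* F) : F →* F)) ?_
  intro σ τ hst
  ext x
  exact DFunLike.congr_fun hst x

/-- The additive map attached to an automorphism, as a `ZMod 2`-linear map. -/
noncomputable def linAut [Algebra (ZMod 2) F] (σ : F ≃+* F) : F →ₗ[ZMod 2] F :=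
  ((σ : F →+* F) : F →+ F).toZModLinearMap 2

theorem card_aut [Algebra (ZMod 2) F] : Nat.card (F ≃+* F) = finrank (ZMod 2) F := by
  haveI : Fact (Nat.Prime 2) := ⟨Nat.prime_two⟩
  have h1 : Nat.card (F ≃ₐ[ZMod 2] F) = finrank (ZMod 2) F := IsGalois.card_aut_eq_finrank _ _
  rw [← h1]
  symm
  refine Nat.card_congr ⟨fun σ => σ.toRingEquiv, fun σ => AlgEquiv.ofRingEquiv (f := σ) ?_, ?_, ?_⟩
  · intro r
    have : ((σ : F →+* F).comp (algebraMap (ZMod 2) F)) = algebraMap (ZMod 2) F :=
      RingHom.ext_zmod _ _
    exact DFunLike.congr_fun this r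
  · intro σ
    ext x
    rfl
  · intro σ
    ext x
    rfl

variable [CharP F 2]

omit [Fintype F] [CharP F 2] in
theorem linearIndependent_linAut [Algebra (ZMod 2) F] : LinearIndependent F (linAut (F := F)) := by
  have h := linearIndependent_aut (F := F)
  let L : (F →ₗ[ZMod 2] F) →ₗ[F] (F → F) :=
    { toFun := fun f => (f : F → F)
      map_add' := fun _ _ => rfl
      map_smul' := fun _ _ => rfl }
  apply LinearIndependent.of_comp L
  exact h

theorem span_linAut [Algebra (ZMod 2) F] :
    Submodule.span F (Set.range (linAut (F := F))) = ⊤ := by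
  haveI : Fact (Nat.Prime 2) := ⟨Nat.prime_two⟩
  haveI := finite_aut (F := F)
  haveI := Fintype.ofFinite (F ≃+* F)
  apply LinearIndependent.span_eq_top_of_card_eq_finrank' linearIndependent_linAut
  rw [← Nat.card_eq_fintype_card, card_aut, Module.finrank_linearMap, finrank_self, mul_one]

/-- Every additive map is a combination of automorphisms (over a fixed index set). -/
theorem exists_repr_additive (f : F →+ F) :
    ∃ c : (F ≃+* F) → F, ∀ s : Finset (F ≃+* F), (∀ σ, σ ∈ s) → ∀ x : F, f x = ∑ σ ∈ s, c σ * σ x := by
  classical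
  letI := ZMod.algebra F 2
  haveI := finite_aut (F := F)
  haveI := Fintype.ofFinite (F ≃+* F)
  have hmem : f.toZModLinearMap 2 ∈ Submodule.span F (Set.range (linAut (F := F))) := by
    rw [span_linAut]
    trivial
  obtain ⟨c, hc⟩ := (Submodule.mem_span_range_iff_exists_fun F).1 hmem
  refine ⟨c, ?_⟩
  intro s hs x
  have h1 : s = Finset.univ := Finset.eq_univ_of_forall hs
  subst h1
  have h2 := congrArg (fun g : F →ₗ[ZMod 2] F => g x) hc
  simp only [LinearMap.sum_apply, LinearMap.smul_apply] at h2
  have h3 : f x = ((f.toZModLinearMap 2 : F →ₗ[ZMod 2] F) x) := rfl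
  rw [h3, ← h2]
  rfl

omit [Fintype F] [CharP F 2] in
/-- Uniqueness of the coefficients. -/
theorem coeff_eq_zero [Fintype (F ≃+* F)] (c : (F ≃+* F) → F) (h : ∀ x : F, ∑ σ, c σ * σ x = 0) (σ : F ≃+* F) :
    c σ = 0 := by
  classical
  have hli := linearIndependent_aut (F := F)
  rw [Fintype.linearIndependent_iff] at hli
  apply hli c
  funext x
  simpa using h x

/-- Biadditive maps. -/
theorem exists_repr_biadditive [Fintype (F ≃+* F)] (B : F →+ F →+ F) :
    ∃ c : (F ≃+* F) × (F ≃+* F) → F, ∀ x y : F, B x y = ∑ p : (F ≃+* F) × (F ≃+* F), c p * (p.1 x * p.2 y) := by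
  classical
  letI := ZMod.algebra F 2
  -- the basis
  let b : Basis (F ≃+* F) F (F →ₗ[ZMod 2] F) :=
    Basis.mk (linearIndependent_linAut (F := F)) (span_linAut (F := F)).ge
  have hb : ∀ σ, b σ = linAut σ := fun σ => Basis.mk_apply _ _ _
  -- the coordinate functions in `x`
  let C : (F ≃+* F) → (F →+ F) := fun τ =>
    { toFun := fun x => b.repr ((B x).toZModLinearMap 2) τ
      map_zero' := by
        have : (B 0).toZModLinearMap 2 = 0 := by
          ext y
          simp
        change b.repr ((B 0).toZModLinearMap 2) τ = 0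
        rw [this]
        simp
      map_add' := by
        intro x x'
        have : (B (x + x')).toZModLinearMap 2 = (B x).toZModLinearMap 2 + (B x').toZModLinearMap 2 := by
          ext y
          simp
        change b.repr ((B (x + x')).toZModLinearMap 2) τ = _
        rw [this, map_add]
        rfl }
  choose d hd using fun τ => exists_repr_additive (C τ)
  refine ⟨fun p => d p.2 p.1, ?_⟩
  intro x y
  have h1 : B x y = ∑ τ, b.repr ((B x).toZModLinearMap 2) τ * τ y := by
    have h2 := b.sum_repr ((B x).toZModLinearMap 2)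
    have h3 := congrArg (fun g : F →ₗ[ZMod 2] F => g y) h2
    simp only [LinearMap.sum_apply, LinearMap.smul_apply, hb] at h3
    have h4 : ((B x).toZModLinearMap 2 : F →ₗ[ZMod 2] F) y = B x y := rfl
    rw [h4] at h3
    rw [← h3]
    rfl
  rw [h1, Fintype.sum_prod_type_right]
  apply Finset.sum_congr rfl
  intro τ _
  have h5 : b.repr ((B x).toZModLinearMap 2) τ = C τ x := rfl
  rw [h5, hd τ Finset.univ (fun _ => Finset.mem_univ _) x, Finset.sum_mul]
  apply Finset.sum_congr rfl
  intro σ _
  ring

/-- The span of the products of two automorphisms. -/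
noncomputable def quadSpan (F : Type*) [Field F] : Submodule F (F → F) :=
  Submodule.span F (Set.range (fun p : (F ≃+* F) × (F ≃+* F) => fun x : F => p.1 x * p.2 x))

theorem mul_additive_mem (f g : F →+ F) : (fun x : F => f x * g x) ∈ quadSpan F := by
  classical
  haveI := finite_aut (F := F)
  haveI := Fintype.ofFinite (F ≃+* F)
  obtain ⟨c, hc⟩ := exists_repr_additive f
  obtain ⟨d, hd⟩ := exists_repr_additive g
  have hs : ∀ σ : F ≃+* F, σ ∈ (Finset.univ : Finset (F ≃+* F)) := Finset.mem_univ
  have h : (fun x : F => f x * g x) =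
      ∑ σ : F ≃+* F, ∑ τ : F ≃+* F, (c σ * d τ) • (fun x : F => σ x * τ x) := by
    funext x
    rw [hc _ hs x, hd _ hs x, Finset.sum_mul_sum]
    simp only [Finset.sum_apply, Pi.smul_apply, smul_eq_mul]
    apply Finset.sum_congr rfl
    intro σ _
    apply Finset.sum_congr rfl
    intro τ _
    ring
  rw [h]
  apply Submodule.sum_mem
  intro σ _
  apply Submodule.sum_mem
  intro τ _
  apply Submodule.smul_mem
  apply Submodule.subset_span
  exact ⟨(σ, τ), rfl⟩

theorem additive_mem (f : F →+ F) : (fun x : F => f x) ∈ quadSpan F := by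
  classical
  haveI : Fact (Nat.Prime 2) := ⟨Nat.prime_two⟩
  haveI : ExpChar F 2 := ExpChar.prime Nat.prime_two
  let g : F →+ F := (((frobeniusEquiv F 2).symm : F ≃+* F) : F →+ F).comp f
  have h : (fun x : F => f x) = fun x => g x * g x := by
    funext x
    have h1 := frobenius_apply_frobeniusEquiv_symm F 2 (f x)
    rw [frobenius_def, pow_two] at h1
    exact h1.symm
  rw [h]
  exact mul_additive_mem g g

/-- Quadratic maps lie in the span of products of automorphisms. -/
theorem quadratic_mem (q : F → F)
    (hq : ∀ x y z : F, q (x + y + z) + q (x + y) + q (x + z) + q (y + z) + q x + q y + q z = 0) :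
    q ∈ quadSpan F := by
  classical
  letI := ZMod.algebra F 2
  haveI : Fact (Nat.Prime 2) := ⟨Nat.prime_two⟩
  have h2 : ∀ z : F, z + z = 0 := CharTwo.add_self_eq_zero
  have hq0 : q 0 = 0 := by
    have h := hq 0 0 0
    simp only [add_zero] at h
    linear_combination h - h2 (q 0) - h2 (q 0) - h2 (q 0)
  -- polarisation
  let Bf : F → F → F := fun u v => q (u + v) + q u + q v
  have hBadd : ∀ u u' e : F, Bf (u + u') e = Bf u e + Bf u' e := by
    intro u u' e
    have h := hq u u' e
    simp only [Bf]
    linear_combination h - h2 (q (u + e)) - h2 (q u) - h2 (q (u' + e)) - h2 (q u') - h2 (q e)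
  have hsplit : ∀ u v : F, q (u + v) = q u + q v + Bf u v := by
    intro u v
    simp only [Bf]
    linear_combination - h2 (q u) - h2 (q v)
  have hB0 : ∀ u : F, Bf u 0 = 0 := by
    intro u
    simp only [Bf, add_zero, hq0]
    linear_combination h2 (q u)
  -- basis
  let b := Module.finBasis (ZMod 2) F
  have hzmod : ∀ a : ZMod 2, a = 0 ∨ a = 1 := by
    intro a
    fin_cases a
    · exact Or.inl rfl
    · exact Or.inr rfl
  -- coordinates as additive maps
  let A : Fin (Module.finrank (ZMod 2) F) → (F →+ F) := fun k =>
    AddMonoidHom.mk' (fun x => algebraMap (ZMod 2) F (b.repr x k)) (by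
      intro x y
      simp)
  let Y : Finset (Fin (Module.finrank (ZMod 2) F)) → (F →+ F) := fun S =>
    AddMonoidHom.mk' (fun x => ∑ i ∈ S, (b.repr x i) • b i) (by
      intro x y
      simp [add_smul, Finset.sum_add_distrib])
  have hsmulq : ∀ (a : ZMod 2) (e : F), q (a • e) = algebraMap (ZMod 2) F a * q e := by
    intro a e
    rcases hzmod a with rfl | rfl
    · simp [hq0]
    · simp
  have hsmulB : ∀ (a : ZMod 2) (u e : F), Bf u (a • e) = algebraMap (ZMod 2) F a * Bf u e := by
    intro a u e
    rcases hzmod a with rfl | rfl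
    · simp [hB0]
    · simp
  have main : ∀ S : Finset (Fin (Module.finrank (ZMod 2) F)), (fun x : F => q (Y S x)) ∈ quadSpan F := by
    intro S
    induction S using Finset.induction_on with
    | empty =>
      have : (fun x : F => q (Y ∅ x)) = 0 := by
        funext x
        simp [Y, hq0]
      rw [this]
      exact Submodule.zero_mem _
    | insert k S hk ih =>
      -- additive maps needed
      let ce : F := b k
      let L1 : F →+ F := AddMonoidHom.mk' (fun x => A k x * q ce) (by
        intro x y
        simp [add_mul])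
      let L2 : F →+ F := AddMonoidHom.mk' (fun x => Bf (Y S x) ce) (by
        intro x y
        rw [map_add, hBadd])
      have hdecomp : (fun x : F => q (Y (insert k S) x)) =
          (fun x : F => q (Y S x)) + (fun x : F => L1 x) + (fun x : F => A k x * L2 x) := by
        funext x
        have h1 : Y (insert k S) x = Y S x + (b.repr x k) • ce := by
          change ∑ i ∈ insert k S, (b.repr x i) • b i = (∑ i ∈ S, (b.repr x i) • b i) + (b.repr x k) • b k
          rw [Finset.sum_insert hk, add_comm]
        simp only [Pi.add_apply]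
        rw [h1, hsplit, hsmulq, hsmulB]
        rfl
      rw [hdecomp]
      exact Submodule.add_mem _ (Submodule.add_mem _ ih (additive_mem L1)) (mul_additive_mem (A k) L2)
  have hfin : (fun x : F => q (Y Finset.univ x)) = q := by
    funext x
    have : Y Finset.univ x = x := b.sum_repr x
    rw [this]
  rw [← hfin]
  exact main _

end Cfsg.Agent.Lib.RankOne.FieldAut
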